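import Cfsg.Agent.H535.Ore.ON
import Cfsg.Agent.H643.PwCnt
import Cfsg.Agent.H78.Pw.Base

/-!
# S2465: the row of the O'Nan group (helper78)

`Cfsg.Agent.H535.Ore.ON.prd_on`: every `g ≠ 1` is a product of two elements of order 11;
`p = 11` by the counting lemma (`11 ^ 2` does not divide the order).
-/

set_option autoImplicit false

open Cfsg Subgroup

namespace Cfsg.Agent.H78.Pw.ONRow

open Cfsg.Agent.H65.Ore (Prd)

theorem orderOf_conj' {G : Type*} [Group G] (a x : G) : orderOf (a * x * a⁻¹) = orderOf x :=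
  orderOf_injective (MulAut.conj a).toMonoidHom (MulAut.conj a).injective x

theorem pr_of_prd {G : Type*} [Group G] {n : ℕ} {x y g : G} (h : Prd x y g)
    (hx : (orderOf x).Coprime n) (hy : (orderOf y).Coprime n) : Pr n g := by
  obtain ⟨a, b, e⟩ := h
  exact ⟨a * x * a⁻¹, b * y * b⁻¹, e, by rwa [orderOf_conj'], by rwa [orderOf_conj']⟩

theorem all_of_coprime {n : ℕ} (hn : (11 : ℕ).Coprime n) : All n Spor.ON := by
  intro g
  by_cases hg : g = 1
  · rw [hg]
    exact Pr.one n
  obtain ⟨x, -, hx, -⟩ := H535.Ore.ON.exists_inverted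
  exact pr_of_prd (H535.Ore.ON.prd_on hx hx hg) (by rwa [hx]) (by rwa [hx])

theorem pw : Pw Spor.ON := by
  refine ⟨all_of_coprime (by norm_num), fun p hp h5 => ?_⟩
  rcases eq_or_ne p 11 with rfl | h
  · have hs : IsSimpleGroup Spor.ON := KFacts.ON.Cent.hON.1
    have hf : Finite Spor.ON := KFacts.ON.Cent.finite_ON
    refine H643.PwCnt.all_of_not_sq_dvd H535.Ore.ON.not_comm hp ?_
    rw [KFacts.ON.OneClass.card_ON]
    norm_num
  · exact all_of_coprime ((Nat.coprime_primes (by norm_num) hp).2 (Ne.symm h))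

/-- **S2465, the row of O'N** -/
theorem pw_on {S : Type*} [Group S] (h : Spor.IsoON S) : Pw S := by
  obtain ⟨e⟩ := h
  exact pw.congr e.symm

end Cfsg.Agent.H78.Pw.ONRow
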